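import Cfsg.Agent.Spec53.U34.Basic

/-!
Elements of orders 10 and 15 of `SU3(4)`.
-/

set_option autoImplicit false

namespace CfsgLib.Spec53.U34

/-- An element of order 10. -/
def tenC : M3 := ⟨⟨14, 4, 15⟩, ⟨8, 5, 4⟩, ⟨4, 10, 4⟩⟩

/-- An element of order 15. -/
def fifteenC : M3 := ⟨⟨1, 14, 9⟩, ⟨5, 5, 1⟩, ⟨4, 12, 6⟩⟩

/-- Powers. -/
def powM (A : M3) : ℕ → M3
  | 0 => oneM
  | n + 1 => mulM (powM A n) A

/-- Row orthonormality and the third row. -/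
def isSUC (A : M3) : Bool :=
  hC A.r A.r == 1 && hC A.s A.s == 1 && hC A.t A.t == 1 && hC A.r A.s == 0 && hC A.r A.t == 0 &&
    hC A.s A.t == 0 && hC A.s A.r == 0 && hC A.t A.r == 0 && hC A.t A.s == 0

/-- The determinant. -/
def detC (A : M3) : ℕ :=
  mulC A.r.x (mulC A.s.y A.t.z ^^^ mulC A.s.z A.t.y) ^^^
    (mulC A.r.y (mulC A.s.x A.t.z ^^^ mulC A.s.z A.t.x) ^^^
      mulC A.r.z (mulC A.s.x A.t.y ^^^ mulC A.s.y A.t.x))

theorem ten_facts : isSUC tenC = true ∧ detC tenC = 1 ∧ powM tenC 10 = oneM ∧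
    powM tenC 5 ≠ oneM ∧ powM tenC 2 ≠ oneM := by
  decide +kernel

theorem fifteen_facts : isSUC fifteenC = true ∧ detC fifteenC = 1 ∧ powM fifteenC 15 = oneM ∧
    powM fifteenC 5 ≠ oneM ∧ powM fifteenC 3 ≠ oneM := by
  decide +kernel

end CfsgLib.Spec53.U34
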