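import Cfsg.Agent.Spec53.U34.Check
import Cfsg.Agent.Spec53.U34.Elements
import Cfsg.Agent.Spec53.PrimeGraphModule
import Cfsg.Agent.Spec53.PSU3Spectrum

/-!
`SU3(4)` has a module in characteristic five on which the elements of order 13 act without fixed
points; hence arbitrarily large groups with its prime graph.
-/

set_option autoImplicit false

namespace CfsgLib.Spec53.U34

open Matrix CfsgLib.Unitary

variable {F : Type*} [Field F]

/-- The vector of a code. -/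
def eV (ω : F) (u : V3) : Fin 3 → F := ![enc ω u.x, enc ω u.y, enc ω u.z]

/-- The matrix of a code. -/
def eM (ω : F) (A : M3) : Matrix (Fin 3) (Fin 3) F :=
  Matrix.of ![eV ω A.r, eV ω A.s, eV ω A.t]

/-- Bounded codes. -/
def BdV (u : V3) : Prop := u.x < 16 ∧ u.y < 16 ∧ u.z < 16

/-- Bounded matrices. -/
def BdM (A : M3) : Prop := BdV A.r ∧ BdV A.s ∧ BdV A.t

theorem mulC_lt (a b : ℕ) : mulC a b < 16 := Nat.mod_lt _ (by omega)

theorem frC_lt (a : ℕ) : frC a < 16 := Nat.mod_lt _ (by omega)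

theorem xor_lt {a b : ℕ} (ha : a < 16) (hb : b < 16) : a ^^^ b < 16 :=
  Nat.xor_lt_two_pow (n := 4) ha hb

theorem dotC_lt (u : V3) (a b c : ℕ) : dotC u a b c < 16 :=
  xor_lt (mulC_lt _ _) (xor_lt (mulC_lt _ _) (mulC_lt _ _))

theorem bd_mulM (A B : M3) : BdM (mulM A B) :=
  ⟨⟨dotC_lt _ _ _ _, dotC_lt _ _ _ _, dotC_lt _ _ _ _⟩,
    ⟨dotC_lt _ _ _ _, dotC_lt _ _ _ _, dotC_lt _ _ _ _⟩,
    ⟨dotC_lt _ _ _ _, dotC_lt _ _ _ _, dotC_lt _ _ _ _⟩⟩

theorem bd_addS {A : M3} (hA : BdM A) {a : ℕ} (ha : a < 16) : BdM (addS A a) := by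
  obtain ⟨⟨a1, a2, a3⟩, ⟨b1, b2, b3⟩, ⟨c1, c2, c3⟩⟩ := hA
  exact ⟨⟨xor_lt a1 ha, a2, a3⟩, ⟨b1, xor_lt b2 ha, b3⟩, ⟨c1, c2, xor_lt c3 ha⟩⟩

theorem bd_oneM : BdM oneM := by simp [BdM, BdV, oneM]

theorem bd_zeroM : BdM zeroM := by simp [BdM, BdV, zeroM]

variable [CharP F 2] {ω : F}

theorem eM_mulM (hω : IsGen ω) (A B : M3) : eM ω (mulM A B) = eM ω A * eM ω B := by
  ext i j
  fin_cases i <;> fin_cases j <;>
    simp [eM, eV, mulM, vecM, dotC, enc_xor, enc_mul hω, Matrix.mul_apply, Fin.sum_univ_three] <;>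
    abel

theorem eV_vecM (hω : IsGen ω) (u : V3) (B : M3) : eV ω (vecM u B) = eV ω u ᵥ* eM ω B := by
  ext j
  fin_cases j <;>
    simp [eM, eV, vecM, dotC, enc_xor, enc_mul hω, Matrix.vecMul, dotProduct, Fin.sum_univ_three] <;>
    abel

omit [CharP F 2] in
theorem eM_oneM (ω : F) : eM ω oneM = 1 := by
  ext i j
  fin_cases i <;> fin_cases j <;> simp [eM, eV, oneM, enc_zero, enc_one]

omit [CharP F 2] in
theorem eM_zeroM (ω : F) : eM ω zeroM = 0 := by
  ext i j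
  fin_cases i <;> fin_cases j <;> simp [eM, eV, zeroM, enc_zero]

theorem eM_addS (A : M3) (a : ℕ) : eM ω (addS A a) = eM ω A + enc ω a • 1 := by
  ext i j
  fin_cases i <;> fin_cases j <;> simp [eM, eV, addS, enc_xor]

theorem trace_trP (hω : IsGen ω) (A B : M3) :
    (eM ω A * eM ω B).trace = enc ω (trP A B) := by
  simp [Matrix.trace, Fin.sum_univ_three, eM, eV, trP, dotC, enc_xor, enc_mul hω, Matrix.mul_apply]
  abel

theorem eV_inj (hω : IsGen ω) {u v : V3} (hu : BdV u) (hv : BdV v) (h : eV ω u = eV ω v) :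
    u = v := by
  cases u; cases v
  have h0 := congrFun h 0
  have h1 := congrFun h 1
  have h2 := congrFun h 2
  simp [eV] at h0 h1 h2
  obtain rfl := enc_inj hω hu.1 hv.1 h0
  obtain rfl := enc_inj hω hu.2.1 hv.2.1 h1
  obtain rfl := enc_inj hω hu.2.2 hv.2.2 h2
  rfl

theorem eM_inj (hω : IsGen ω) {A B : M3} (hA : BdM A) (hB : BdM B) (h : eM ω A = eM ω B) :
    A = B := by
  cases A; cases B
  have h0 := congrFun h 0
  have h1 := congrFun h 1
  have h2 := congrFun h 2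
  obtain rfl := eV_inj hω hA.1 hB.1 h0
  obtain rfl := eV_inj hω hA.2.1 hB.2.1 h1
  obtain rfl := eV_inj hω hA.2.2 hB.2.2 h2
  rfl

theorem eM_eq_iff (hω : IsGen ω) {A B : M3} (hA : BdM A) (hB : BdM B) :
    eM ω A = eM ω B ↔ A = B :=
  ⟨eM_inj hω hA hB, fun h => by rw [h]⟩

theorem eV_hC (hω : IsGen ω) (u v : V3) :
    enc ω (hC u v) = eV ω u 0 * eV ω v 0 ^ 4 + eV ω u 1 * eV ω v 1 ^ 4 + eV ω u 2 * eV ω v 2 ^ 4 := by
  simp [hC, dotC, eV, enc_xor, enc_mul hω, enc_fr hω]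
  abel

variable [Fintype F] [DecidableEq F]

/-- The test class function. -/
noncomputable def phiF (ω : F) (A : Matrix (Fin 3) (Fin 3) F) : ZMod 5 :=
  if A.trace ^ 4 * A.trace = 1 then
    if A.trace = 1 then
      if A = 1 then 2 else if (A + (1 : F) • 1) * (A + (1 : F) • 1) = 0 then 1 else 0
    else if (A + (A.trace * A.trace) • 1) * (A + A.trace • 1) = 0 then 2 else 1
  else ((traceTab.getD (dec ω A.trace) 0 : ℕ) : ZMod 5)

omit [CharP F 2] in
theorem phiF_one (ω : F) [CharP F 2] : phiF ω 1 = 2 := by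
  have h : (1 : Matrix (Fin 3) (Fin 3) F).trace = 1 := by
    have h2 : (2 : F) = 0 := CharTwo.two_eq_zero
    rw [Matrix.trace_one, Fintype.card_fin]
    linear_combination h2
  simp [phiF, h]

omit [CharP F 2] in
theorem phiF_conj (ω : F) {P Q : Matrix (Fin 3) (Fin 3) F} (hPQ : P * Q = 1)
    (A : Matrix (Fin 3) (Fin 3) F) : phiF ω (P * A * Q) = phiF ω A := by
  have hQP : Q * P = 1 := mul_eq_one_comm.1 hPQ
  have ht : (P * A * Q).trace = A.trace := by
    rw [Matrix.trace_mul_comm, ← mul_assoc, hQP, one_mul]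
  have cancel : ∀ X : Matrix (Fin 3) (Fin 3) F, Q * (P * X * Q) * P = X := fun X => by
    simp only [← mul_assoc, hQP, one_mul]
    rw [mul_assoc, hQP, mul_one]
  have hiff : ∀ X Y : Matrix (Fin 3) (Fin 3) F, P * X * Q = P * Y * Q ↔ X = Y := fun X Y =>
    ⟨fun h => by rw [← cancel X, h, cancel], fun h => by rw [h]⟩
  have hadd : ∀ c : F, P * A * Q + c • 1 = P * (A + c • 1) * Q := fun c => by
    rw [mul_add, add_mul, mul_smul_comm, mul_one, smul_mul_assoc, hPQ]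
  have hmul : ∀ X Y : Matrix (Fin 3) (Fin 3) F, P * X * Q * (P * Y * Q) = P * (X * Y) * Q :=
    fun X Y => by
      calc P * X * Q * (P * Y * Q) = P * X * (Q * P) * (Y * Q) := by simp only [mul_assoc]
        _ = _ := by rw [hQP, mul_one]; simp only [mul_assoc]
  have h0 : ∀ X : Matrix (Fin 3) (Fin 3) F, P * X * Q = 0 ↔ X = 0 := fun X => by
    have := hiff X 0
    rwa [mul_zero, zero_mul] at this
  have h1 : P * A * Q = 1 ↔ A = 1 := by
    have := hiff A 1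
    rwa [mul_one, hPQ] at this
  simp only [phiF, ht, hadd, hmul, h0, h1]

theorem phiF_code (hω : IsGen ω) (hF : Fintype.card F = 16) (A B : M3) :
    phiF ω (eM ω A * eM ω B) = (phiC A B : ℕ) := by
  have htr := trace_trP hω A B
  have htlt : trP A B < 16 := xor_lt (dotC_lt _ _ _ _) (xor_lt (dotC_lt _ _ _ _) (dotC_lt _ _ _ _))
  have hP := bd_mulM A B
  have heq : ∀ {a : ℕ}, a < 16 → (enc ω a = 1 ↔ a = 1) := fun {a} ha =>
    ⟨fun h => enc_inj hω ha (by omega) (h.trans (enc_one ω).symm), fun h => by rw [h, enc_one]⟩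
  have e1 : (eM ω A * eM ω B).trace ^ 4 * (eM ω A * eM ω B).trace = 1 ↔
      mulC (frC (trP A B)) (trP A B) = 1 := by
    rw [htr, ← enc_fr hω, ← enc_mul hω, heq (mulC_lt _ _)]
  have e2 : (eM ω A * eM ω B).trace = 1 ↔ trP A B = 1 := by rw [htr, heq htlt]
  have e3 : eM ω A * eM ω B = 1 ↔ mulM A B = oneM := by
    rw [← eM_mulM hω, ← eM_oneM ω, eM_eq_iff hω hP bd_oneM]
  have e4 : (eM ω A * eM ω B + (1 : F) • 1) * (eM ω A * eM ω B + (1 : F) • 1) = 0 ↔
      mulM (addS (mulM A B) 1) (addS (mulM A B) 1) = zeroM := by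
    rw [← enc_one ω, ← eM_mulM hω, ← eM_addS, ← eM_mulM hω, ← eM_zeroM ω,
      eM_eq_iff hω (bd_mulM _ _) bd_zeroM]
  have e5 : (eM ω A * eM ω B + ((eM ω A * eM ω B).trace * (eM ω A * eM ω B).trace) • 1) *
      (eM ω A * eM ω B + (eM ω A * eM ω B).trace • 1) = 0 ↔
      mulM (addS (mulM A B) (mulC (trP A B) (trP A B))) (addS (mulM A B) (trP A B)) = zeroM := by
    rw [htr, ← enc_mul hω, ← eM_mulM hω, ← eM_addS, ← eM_addS, ← eM_mulM hω, ← eM_zeroM ω,
      eM_eq_iff hω (bd_mulM _ _) bd_zeroM]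
  simp only [phiF, phiC, e1, e2, e3, e4, e5]
  rw [htr, dec_enc hω hF htlt]
  split_ifs <;> rfl

omit [DecidableEq F] in
theorem card_F_eq (hF : Fintype.card F = 16) : Fintype.card F = 4 ^ 2 := by rw [hF]; norm_num

omit [DecidableEq F] in
theorem pow_sixteen (hF : Fintype.card F = 16) (x : F) : (x ^ 4) ^ 4 = x := by
  have := FiniteField.pow_card x
  rw [hF] at this
  rw [← pow_mul]
  exact this

/-- The underlying matrix of an element of the special unitary group. -/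
abbrev mat (g : ↥(Cfsg.SU 3 F 4)) : Matrix (Fin 3) (Fin 3) F :=
  ((g : Matrix.SpecialLinearGroup (Fin 3) F) : Matrix (Fin 3) (Fin 3) F)

omit [CharP F 2] [Fintype F] [DecidableEq F] in
theorem mat_mul (g h : ↥(Cfsg.SU 3 F 4)) : mat (g * h) = mat g * mat h := rfl

omit [CharP F 2] [Fintype F] [DecidableEq F] in
theorem mat_injective : Function.Injective (mat (F := F)) := fun _ _ h => Subtype.ext (Subtype.ext h)

omit [CharP F 2] [Fintype F] [DecidableEq F] in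
theorem mat_pow (g : ↥(Cfsg.SU 3 F 4)) (n : ℕ) : mat (g ^ n) = mat g ^ n := by
  simp [mat]

omit [DecidableEq F] in
/-- A coded matrix with orthonormal rows and determinant one is in the group. -/
theorem exists_of_code (hω : IsGen ω) (hF : Fintype.card F = 16) {A : M3}
    (hu : isSUC A = true) (hd : detC A = 1) : ∃ g : ↥(Cfsg.SU 3 F 4), mat g = eM ω A := by
  simp only [isSUC, Bool.and_eq_true, beq_iff_eq] at hu
  obtain ⟨⟨⟨⟨⟨⟨⟨⟨h1, h2⟩, h3⟩, h4⟩, h5⟩, h6⟩, h7⟩, h8⟩, h9⟩ := hu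
  have hdet : (eM ω A).det = 1 := by
    have := congrArg (enc ω) hd
    simp only [detC, enc_xor, enc_mul hω, enc_one] at this
    rw [← this, Matrix.det_fin_three]
    simp [eM, eV, CharTwo.sub_eq_add]
    ring
  refine ⟨⟨⟨eM ω A, hdet⟩, (mem_SU_iff_cjT (card_F_eq hF)).2 (mul_eq_one_comm.1 ?_)⟩, rfl⟩
  have key : ∀ (u v : V3) (k : ℕ), hC u v = k → enc ω k =
      eV ω u 0 * eV ω v 0 ^ 4 + eV ω u 1 * eV ω v 1 ^ 4 + eV ω u 2 * eV ω v 2 ^ 4 :=
    fun u v k h => by rw [← h, eV_hC hω]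
  have a1 := key _ _ _ h1
  have a2 := key _ _ _ h2
  have a3 := key _ _ _ h3
  have a4 := key _ _ _ h4
  have a5 := key _ _ _ h5
  have a6 := key _ _ _ h6
  have a7 := key _ _ _ h7
  have a8 := key _ _ _ h8
  have a9 := key _ _ _ h9
  simp [eV, enc_one, enc_zero] at a1 a2 a3 a4 a5 a6 a7 a8 a9
  ext i j
  fin_cases i <;> fin_cases j <;>
    simp [cjT, eM, eV, Matrix.mul_apply, Fin.sum_univ_three, ← a1, ← a2, ← a3, ← a4, ← a5, ← a6,
      ← a7, ← a8, ← a9]

omit [DecidableEq F] in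
/-- Rows of a unitary matrix. -/
theorem row_facts (hF : Fintype.card F = 16) (g : ↥(Cfsg.SU 3 F 4)) :
    (∀ i j, mat g i 0 * mat g j 0 ^ 4 + mat g i 1 * mat g j 1 ^ 4 + mat g i 2 * mat g j 2 ^ 4 =
      if i = j then 1 else 0) ∧
    (mat g 2 0 = (mat g 0 1 * mat g 1 2 + mat g 0 2 * mat g 1 1) ^ 4 ∧
      mat g 2 1 = (mat g 0 2 * mat g 1 0 + mat g 0 0 * mat g 1 2) ^ 4 ∧
      mat g 2 2 = (mat g 0 0 * mat g 1 1 + mat g 0 1 * mat g 1 0) ^ 4) := by
  have h := (mem_SU_iff_cjT (card_F_eq hF)).1 g.2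
  have h' : mat g * cjT 4 (mat g) = 1 := mul_eq_one_comm.1 h
  refine ⟨fun i j => ?_, ?_⟩
  · have := congrFun (congrFun h' i) j
    simpa [Matrix.mul_apply, Fin.sum_univ_three, cjT, Matrix.one_apply] using this
  have hdet : (mat g).det = 1 := (g : Matrix.SpecialLinearGroup (Fin 3) F).2
  have hadj : (mat g).adjugate = cjT 4 (mat g) := by
    calc (mat g).adjugate = (mat g).adjugate * (mat g * cjT 4 (mat g)) := by rw [h', mul_one]
      _ = _ := by rw [← mul_assoc, Matrix.adjugate_mul, hdet, one_smul, one_mul]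
  have e := fun i j => congrFun (congrFun hadj i) j
  have e0 := e 0 2
  have e1 := e 1 2
  have e2 := e 2 2
  rw [Matrix.adjugate_fin_three] at e0 e1 e2
  simp [cjT, CharTwo.sub_eq_add, CharTwo.neg_eq] at e0 e1 e2
  refine ⟨?_, ?_, ?_⟩
  · rw [e0, pow_sixteen hF]
  · rw [show mat g 0 2 * mat g 1 0 + mat g 0 0 * mat g 1 2 = mat g 2 1 ^ 4 by
      rw [← e1]; ring, pow_sixteen hF]
  · rw [e2, pow_sixteen hF]

theorem cPow_code (hω : IsGen ω) (c : ↥(Cfsg.SU 3 F 4)) (hc : mat c = eM ω cC) :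
    ∀ i : ℕ, i < 13 → mat (c ^ i) = eM ω (cPow.getD i zeroM) := by
  intro i
  induction i with
  | zero => intro _; rw [pow_zero, cPow_step.2.1, eM_oneM]; rfl
  | succ i ih =>
    intro hi
    rw [pow_succ, mat_mul, ih (by omega), hc,
      cPow_step.2.2.1 ⟨i, by omega⟩, eM_mulM hω]

/-- The element of order 13. -/
theorem exists_c (hω : IsGen ω) (hF : Fintype.card F = 16) :
    ∃ c : ↥(Cfsg.SU 3 F 4), mat c = eM ω cC ∧ orderOf c = 13 ∧
      (∀ x, x ∈ Subgroup.zpowers c → ∃ A ∈ cPow, mat x = eM ω A) ∧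
      ∀ A ∈ cPow, ∃ x, x ∈ Subgroup.zpowers c ∧ mat x = eM ω A := by
  haveI : Fact (Nat.Prime 13) := ⟨by norm_num⟩
  obtain ⟨c, hc⟩ := exists_of_code hω hF (A := cC) (by decide +kernel) (by decide +kernel)
  obtain ⟨hlen, h0, hs, h13, -, -, -, -, -, -, -, hne⟩ := cPow_step
  have hp := cPow_code hω c hc
  have hone : mat (1 : ↥(Cfsg.SU 3 F 4)) = eM ω oneM := (eM_oneM ω).symm
  have hpow : c ^ 13 = 1 := by
    refine mat_injective ?_
    rw [pow_succ, mat_mul, hp 12 (by omega), hc, ← eM_mulM hω, h13, hone]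
  have hc1 : c ≠ 1 := fun e => hne (eM_inj hω (by simp [BdM, BdV, cC]) bd_oneM (by
    rw [← hc, e, hone]))
  have hord : orderOf c = 13 := orderOf_eq_prime hpow hc1
  refine ⟨c, hc, hord, fun x hx => ?_, fun A hA => ?_⟩
  · obtain ⟨k, rfl⟩ := mem_powers_iff_mem_zpowers.2 hx
    refine ⟨cPow.getD (k % 13) zeroM, ?_, ?_⟩
    · rw [List.getD_eq_getElem (hn := by rw [hlen]; omega)]
      exact List.getElem_mem _
    · show mat (c ^ k) = _
      rw [← pow_mod_orderOf, hord, hp _ (by omega)]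
  · obtain ⟨i, hi, rfl⟩ := List.getElem_of_mem hA
    refine ⟨c ^ i, Subgroup.pow_mem _ (Subgroup.mem_zpowers c) i, ?_⟩
    rw [hp i (hlen ▸ hi), List.getD_eq_getElem]

theorem sum_phi_eq_zero_of_rep (hω : IsGen ω) (hF : Fintype.card F = 16)
    (c : ↥(Cfsg.SU 3 F 4)) (hc : mat c = eM ω cC) (g : ↥(Cfsg.SU 3 F 4)) {u : V3}
    (hu : u ∈ repV) (hrow : mat g 0 = eV ω u) :
    ∑ i ∈ Finset.range 13, phiF ω (mat (c ^ i * g)) = 0 := by
  obtain ⟨hrows, h20, h21, h22⟩ := row_facts hF g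
  let v : V3 := ⟨dec ω (mat g 1 0), dec ω (mat g 1 1), dec ω (mat g 1 2)⟩
  have hvb : BdV v := ⟨dec_lt _ _, dec_lt _ _, dec_lt _ _⟩
  have hv : mat g 1 = eV ω v := by
    ext j; fin_cases j <;> simp [eV, v, enc_dec hω hF]
  have hg : mat g = eM ω ⟨u, v, crossC u v⟩ := by
    have r0 := fun j => congrFun hrow j
    have r1 := fun j => congrFun hv j
    ext i j
    fin_cases i
    · simpa [eM] using r0 j
    · simpa [eM] using r1 j
    · fin_cases j
      · show mat g 2 0 = _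
        rw [h20, r0, r0, r1, r1]
        simp [eM, eV, crossC, enc_xor, enc_mul hω, enc_fr hω]
      · show mat g 2 1 = _
        rw [h21, r0, r0, r1, r1]
        simp [eM, eV, crossC, enc_xor, enc_mul hω, enc_fr hω]
      · show mat g 2 2 = _
        rw [h22, r0, r0, r1, r1]
        simp [eM, eV, crossC, enc_xor, enc_mul hω, enc_fr hω]
  have hv1 : hC v v = 1 := by
    refine enc_inj hω (dotC_lt _ _ _ _) (by omega) ?_
    rw [eV_hC hω, enc_one, ← hv]
    simpa using hrows 1 1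
  have hvu : hC v u = 0 := by
    refine enc_inj hω (dotC_lt _ _ _ _) (by omega) ?_
    rw [eV_hC hω, enc_zero, ← hv, ← hrow]
    simpa using hrows 1 0
  have hmem : v ∈ normV := norm_cover ⟨v.x, hvb.1⟩ ⟨v.y, hvb.2.1⟩ ⟨v.z, hvb.2.2⟩ hv1
  have h := repCheck_of_mem hu
  unfold repCheck at h
  rw [List.all_eq_true] at h
  have hr := h v hmem
  simp only [hvu, bne_self_eq_false, Bool.false_or, rowCheck, beq_iff_eq] at hr
  have hsum : ((cPow.map fun c => phiC c ⟨u, v, crossC u v⟩).sum : ZMod 5) = 0 := by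
    rw [← ZMod.natCast_mod, hr, Nat.cast_zero]
  rw [← hsum, Nat.cast_list_sum, List.map_map]
  have hl : cPow = (List.range 13).map fun i => cPow.getD i zeroM := by decide +kernel
  conv_rhs => rw [hl, List.map_map]
  rw [← List.sum_toFinset _ List.nodup_range, List.toFinset_range]
  refine Finset.sum_congr rfl fun i hi => ?_
  rw [mat_mul, cPow_code hω c hc i (Finset.mem_range.1 hi), hg, phiF_code hω hF]
  rfl

/-- The sums over a subgroup of order 13 vanish. -/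
theorem sum_phi_eq_zero (hω : IsGen ω) (hF : Fintype.card F = 16)
    (c : ↥(Cfsg.SU 3 F 4)) (hc : mat c = eM ω cC) (hord : orderOf c = 13)
    (g : ↥(Cfsg.SU 3 F 4)) : ∑ i ∈ Finset.range 13, phiF ω (mat (c ^ i * g)) = 0 := by
  let u : V3 := ⟨dec ω (mat g 0 0), dec ω (mat g 0 1), dec ω (mat g 0 2)⟩
  have hrow : mat g 0 = eV ω u := by
    ext j; fin_cases j <;> simp [eV, u, enc_dec hω hF]
  have hu1 : hC u u = 1 := by
    refine enc_inj hω (dotC_lt _ _ _ _) (by omega) ?_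
    rw [eV_hC hω, enc_one, ← hrow]
    simpa using (row_facts hF g).1 0 0
  have hmem : u ∈ normV :=
    norm_cover ⟨u.x, dec_lt _ _⟩ ⟨u.y, dec_lt _ _⟩ ⟨u.z, dec_lt _ _⟩ hu1
  obtain ⟨p, hp, hpu⟩ := rep_cover u hmem
  obtain ⟨k, hk, rfl⟩ := List.getElem_of_mem hp
  have hk13 : k < 13 := cPow_step.1 ▸ hk
  have hrow' : mat (g * c ^ k) 0 = eV ω (vecM u cPow[k]) := by
    rw [eV_vecM hω, ← hrow, mat_mul, cPow_code hω c hc k hk13, List.getD_eq_getElem (hn := hk)]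
    rfl
  rw [← sum_phi_eq_zero_of_rep hω hF c hc _ hpu hrow']
  have key : ∀ i, phiF ω (mat (c ^ i * (g * c ^ k))) = phiF ω (mat (c ^ (i + k) * g)) := by
    intro i
    have e : c ^ (i + k) * g = c ^ k * (c ^ i * (g * c ^ k)) * (c ^ k)⁻¹ := by
      rw [add_comm, pow_add]; group
    rw [e, mat_mul, mat_mul]
    exact (phiF_conj ω (by rw [← mat_mul, mul_inv_cancel]; rfl) _).symm
  simp only [key]
  have hper : ∀ n, phiF ω (mat (c ^ n * g)) = phiF ω (mat (c ^ (n % 13) * g)) := fun n => by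
    rw [← hord, pow_mod_orderOf]
  refine Finset.sum_bij' (fun i _ => (i + (13 - k)) % 13) (fun i _ => (i + k) % 13) ?_ ?_ ?_ ?_ ?_
  all_goals intro i hi
  all_goals simp only [Finset.mem_range] at hi ⊢
  all_goals first
    | omega
    | (rw [hper ((i + (13 - k)) % 13 + k)]
       congr 4
       omega)

variable (F) in
/-- The module: functions all whose sums over cosets of subgroups of order 13 vanish. -/
def fixFree (c : ↥(Cfsg.SU 3 F 4)) : AddSubgroup (↥(Cfsg.SU 3 F 4) → ZMod 5) where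
  carrier := {w | ∀ a g, ∑ i ∈ Finset.range 13, w (a * c ^ i * a⁻¹ * g) = 0}
  zero_mem' := fun a g => by simp
  add_mem' := fun {v w} hv hw a g => by simp [Finset.sum_add_distrib, hv a g, hw a g]
  neg_mem' := fun {v} hv a g => by simp [hv a g]

omit [CharP F 2] [Fintype F] [DecidableEq F] in
/-- The action by translation. -/
@[instance_reducible]
def fixFreeAction (c : ↥(Cfsg.SU 3 F 4)) : DistribMulAction ↥(Cfsg.SU 3 F 4) ↥(fixFree F c) where
  smul b w := ⟨fun g => (w : ↥(Cfsg.SU 3 F 4) → ZMod 5) (b⁻¹ * g), fun a g => by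
    have := w.2 (b⁻¹ * a) (b⁻¹ * g)
    refine Eq.trans (Finset.sum_congr rfl fun i _ => ?_) this
    congr 1
    group⟩
  one_smul w := Subtype.ext (funext fun g =>
    congrArg (w : ↥(Cfsg.SU 3 F 4) → ZMod 5) (show (1 : ↥(Cfsg.SU 3 F 4))⁻¹ * g = g by group))
  mul_smul a b w := Subtype.ext (funext fun g =>
    congrArg (w : ↥(Cfsg.SU 3 F 4) → ZMod 5)
      (show (a * b)⁻¹ * g = b⁻¹ * (a⁻¹ * g) by group))
  smul_zero _ := rfl
  smul_add _ _ _ := rfl

omit [DecidableEq F] in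
theorem card_facts (hF : Fintype.card F = 16) : Nat.card ↥(Cfsg.SU 3 F 4) = 62400 ∧
    Subgroup.center ↥(Cfsg.SU 3 F 4) = ⊥ := by
  have h16 := card_F_eq hF
  have hc := card_center_SU h16 (n := 3) (by norm_num)
  have hc1 : Nat.card ↥(Subgroup.center ↥(Cfsg.SU 3 F 4)) = 1 := by rw [hc]; rfl
  refine ⟨?_, Subgroup.card_eq_one.1 hc1⟩
  have h := card_SU h16 3 (by norm_num)
  simp [Finset.prod_range_succ] at h
  omega

theorem two_ne_zero_five : (2 : ZMod 5) ≠ 0 := by decide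

theorem thirteen_ne_zero_five : ((13 : ℕ) : ZMod 5) ≠ 0 := by decide

theorem exists_orderOf_of_code (hω : IsGen ω) (hF : Fintype.card F = 16) {A : M3} {p q : ℕ}
    (hp : p.Prime) (hq : q.Prime) (hu : isSUC A = true) (hd : detC A = 1)
    (h : powM A (p * q) = oneM) (h1 : powM A p ≠ oneM) (h2 : powM A q ≠ oneM)
    (hb : ∀ n, 0 < n → BdM (powM A n)) : ∃ g : ↥(Cfsg.SU 3 F 4), orderOf g = p * q := by
  obtain ⟨g, hg⟩ := exists_of_code hω hF hu hd
  have hpow : ∀ n, mat (g ^ n) = eM ω (powM A n) := by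
    intro n
    induction n with
    | zero => rw [pow_zero, powM, eM_oneM]; rfl
    | succ n ih => rw [pow_succ, mat_mul, ih, hg, powM, eM_mulM hω]
  have h1' : ∀ n, 0 < n → powM A n ≠ oneM → g ^ n ≠ 1 := fun n hn hne e => hne (eM_inj hω (hb n hn)
    bd_oneM (by rw [← hpow, e, eM_oneM]; rfl))
  have hd' : orderOf g ∣ p * q := orderOf_dvd_of_pow_eq_one (mat_injective (by
    rw [hpow, h, eM_oneM]; rfl))
  refine ⟨g, ?_⟩
  obtain ⟨a, b, ha, hb', hab⟩ := exists_dvd_and_dvd_of_dvd_mul hd'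
  rcases (Nat.dvd_prime hp).1 ha with rfl | rfl
  · refine absurd ?_ (h1' q hq.pos h2)
    rw [← orderOf_dvd_iff_pow_eq_one, hab, one_mul]; exact hb'
  rcases (Nat.dvd_prime hq).1 hb' with rfl | rfl
  · refine absurd ?_ (h1' a hp.pos h1)
    rw [← orderOf_dvd_iff_pow_eq_one, hab, mul_one]
  · exact hab

/-- Arbitrarily large groups with the prime graph of `PSU3(4)`. -/
theorem unbounded_same_graph {F : Type*} [Field F] [Fintype F] (hF : Fintype.card F = 16) (N : ℕ) :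
    ∃ (H : Type) (_ : Group H) (_ : Finite H), N < Nat.card H ∧
      ((∀ p : ℕ, p.Prime → (p ∣ Nat.card (Cfsg.PSU 3 F 4) ↔ p ∣ Nat.card H)) ∧
      (∀ p q : ℕ, p.Prime → q.Prime → p ≠ q →
        ((∃ g : (Cfsg.PSU 3 F 4), orderOf g = p * q) ↔ (∃ g : H, orderOf g = p * q)))) := by
  classical
  obtain ⟨p, hp⟩ := CharP.exists F
  obtain ⟨n, hpn⟩ := FiniteField.card F p
  have hp2 : p = 2 := by
    have h : p ∣ 2 ^ 4 := by
      rw [show (2 : ℕ) ^ 4 = Fintype.card F by rw [hF]; norm_num, hpn.2]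
      exact dvd_pow_self _ n.ne_zero
    exact (Nat.prime_dvd_prime_iff_eq hpn.1 Nat.prime_two).1 (hpn.1.dvd_of_dvd_pow h)
  subst hp2
  haveI : CharP F 2 := hp
  obtain ⟨ω, hω⟩ := exists_isGen hF
  obtain ⟨c, hc, hord, -, -⟩ := exists_c hω hF
  obtain ⟨hcard, hcen⟩ := card_facts (F := F) hF
  let π : ↥(Cfsg.SU 3 F 4) →* Cfsg.PSU 3 F 4 := QuotientGroup.mk' _
  have hπ : Function.Bijective π := by
    refine ⟨?_, QuotientGroup.mk'_surjective _⟩
    rw [← MonoidHom.ker_eq_bot_iff, QuotientGroup.ker_mk', hcen]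
  let e : ↥(Cfsg.SU 3 F 4) ≃* Cfsg.PSU 3 F 4 := MulEquiv.ofBijective π hπ
  letI := fixFreeAction c
  have hcardP : Nat.card (Cfsg.PSU 3 F 4) = 62400 := by rw [← Nat.card_congr e.toEquiv, hcard]
  have h10 : ∃ g : Cfsg.PSU 3 F 4, orderOf g = 2 * 5 := by
    obtain ⟨g, hg⟩ := exists_orderOf_of_code hω hF Nat.prime_two Nat.prime_five ten_facts.1
      ten_facts.2.1 ten_facts.2.2.1 ten_facts.2.2.2.2 ten_facts.2.2.2.1
      (fun n hn => by cases n with
        | zero => omega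
        | succ n => exact bd_mulM _ _)
    exact ⟨e g, (e.orderOf_eq g).trans hg⟩
  have h15 : ∃ g : Cfsg.PSU 3 F 4, orderOf g = 3 * 5 := by
    obtain ⟨g, hg⟩ := exists_orderOf_of_code hω hF Nat.prime_three Nat.prime_five fifteen_facts.1
      fifteen_facts.2.1 fifteen_facts.2.2.1 fifteen_facts.2.2.2.2 fifteen_facts.2.2.2.1
      (fun n hn => by cases n with
        | zero => omega
        | succ n => exact bd_mulM _ _)
    exact ⟨e g, (e.orderOf_eq g).trans hg⟩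
  haveI : Fact (Nat.Prime 13) := ⟨by norm_num⟩
  haveI : Fact (Nat.Prime 5) := ⟨Nat.prime_five⟩
  let w0 : ↥(fixFree F c) := ⟨fun g => phiF ω (mat g), fun a g => by
    rw [← sum_phi_eq_zero hω hF c hc hord (a⁻¹ * g * a)]
    refine Finset.sum_congr rfl fun i _ => ?_
    show phiF ω (mat (a * c ^ i * a⁻¹ * g)) = phiF ω (mat (c ^ i * (a⁻¹ * g * a)))
    rw [show a * c ^ i * a⁻¹ * g = a * (c ^ i * (a⁻¹ * g * a)) * a⁻¹ by group, mat_mul, mat_mul]
    exact phiF_conj ω (by rw [← mat_mul, mul_inv_cancel]; rfl) _⟩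
  refine large_group_of_module (L := ↥(Cfsg.SU 3 F 4)) (V := ↥(fixFree F c)) Nat.prime_five
    (fun v => Subtype.ext (funext fun g => ?_)) ⟨w0, fun h => ?_⟩ (by rw [hcardP]; norm_num)
    (fun r _ _ => by rw [hcard, hcardP]) (fun a b _ _ _ ⟨g, hg⟩ => ⟨e g, (e.orderOf_eq g).trans hg⟩)
    ?_ (fun a b _ _ _ ⟨g, hg⟩ => Or.inl ⟨e.symm g, (e.symm.orderOf_eq g).trans hg⟩) N
  · show 5 • (v : ↥(Cfsg.SU 3 F 4) → ZMod 5) g = 0
    rw [nsmul_eq_mul, show ((5 : ℕ) : ZMod 5) = 0 from ZMod.natCast_self 5, zero_mul]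
  · have h1 := congrFun (congrArg Subtype.val h) 1
    have : phiF ω (mat (1 : ↥(Cfsg.SU 3 F 4))) = 0 := h1
    rw [show mat (1 : ↥(Cfsg.SU 3 F 4)) = 1 from rfl, phiF_one] at this
    exact two_ne_zero_five this
  rintro r hr hr5 ⟨x, hx, v, hv, hfix⟩
  have hdvd : r ∣ 2 ^ 6 * 3 * 5 ^ 2 * 13 := by
    rw [show 2 ^ 6 * 3 * 5 ^ 2 * 13 = 62400 by norm_num, ← hcard, ← hx]
    exact orderOf_dvd_natCard x
  have hr' : r = 2 ∨ r = 3 ∨ r = 13 := by
    rcases hr.dvd_mul.1 hdvd with h | h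
    · rcases hr.dvd_mul.1 h with h | h
      · rcases hr.dvd_mul.1 h with h | h
        · exact Or.inl ((Nat.prime_dvd_prime_iff_eq hr Nat.prime_two).1 (hr.dvd_of_dvd_pow h))
        · exact Or.inr (Or.inl ((Nat.prime_dvd_prime_iff_eq hr Nat.prime_three).1 h))
      · exact absurd ((Nat.prime_dvd_prime_iff_eq hr Nat.prime_five).1 (hr.dvd_of_dvd_pow h)) hr5
    · exact Or.inr (Or.inr ((Nat.prime_dvd_prime_iff_eq hr (by norm_num)).1 h))
  rcases hr' with rfl | rfl | rfl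
  · exact h10
  · exact h15
  exfalso
  refine hv (Subtype.ext (funext fun g => ?_))
  have hs : ∀ k : Subgroup ↥(Cfsg.SU 3 F 4), Nat.card k = 13 →
      ∃ S : Sylow 13 ↥(Cfsg.SU 3 F 4), (S : Subgroup ↥(Cfsg.SU 3 F 4)) = k := fun k hk => by
    refine ⟨(IsPGroup.of_card (n := 1) (by rw [hk, pow_one])).toSylow ?_, rfl⟩
    intro hd
    have h1 := k.card_mul_index
    rw [hcard, hk] at h1
    omega
  obtain ⟨S, hS⟩ := hs (Subgroup.zpowers x) (by rw [Nat.card_zpowers, hx])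
  obtain ⟨S', hS'⟩ := hs (Subgroup.zpowers c) (by rw [Nat.card_zpowers, hord])
  obtain ⟨a, ha⟩ := MulAction.exists_smul_eq ↥(Cfsg.SU 3 F 4) S' S
  have hsum := v.2 a g
  have hval : ∀ i : ℕ, (v : ↥(Cfsg.SU 3 F 4) → ZMod 5) (a * c ^ i * a⁻¹ * g) =
      (v : ↥(Cfsg.SU 3 F 4) → ZMod 5) g := by
    intro i
    have hmem : a * c ^ i * a⁻¹ ∈ Subgroup.zpowers x := by
      rw [← hS, ← ha, Sylow.coe_subgroup_smul, hS']
      exact ⟨c ^ i, Subgroup.pow_mem _ (Subgroup.mem_zpowers c) i, rfl⟩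
    have hst : a * c ^ i * a⁻¹ ∈ MulAction.stabilizer ↥(Cfsg.SU 3 F 4) v :=
      (Subgroup.zpowers_le.2 (show x ∈ MulAction.stabilizer ↥(Cfsg.SU 3 F 4) v from hfix)) hmem
    have := congrFun (congrArg Subtype.val (inv_mem hst : (a * c ^ i * a⁻¹)⁻¹ • v = v)) g
    change (v : ↥(Cfsg.SU 3 F 4) → ZMod 5) ((a * c ^ i * a⁻¹)⁻¹⁻¹ * g) = _ at this
    rwa [inv_inv] at this
  simp only [hval, Finset.sum_const, Finset.card_range] at hsum
  rw [nsmul_eq_mul] at hsum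
  exact (mul_eq_zero.1 hsum).resolve_left thirteen_ne_zero_five

end CfsgLib.Spec53.U34
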