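import Cfsg.Agent.Spec53.U34.Field

/-!
Coded three by three matrices over the field with sixteen elements.
-/

set_option autoImplicit false

namespace CfsgLib.Spec53.U34

/-- A coded vector. -/
structure V3 where
  x : ℕ
  y : ℕ
  z : ℕ
deriving DecidableEq

/-- A coded matrix, by rows. -/
structure M3 where
  r : V3
  s : V3
  t : V3
deriving DecidableEq

/-- Bilinear dot product. -/
def dotC (u : V3) (a b c : ℕ) : ℕ := mulC u.x a ^^^ (mulC u.y b ^^^ mulC u.z c)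

/-- The hermitian product. -/
def hC (u v : V3) : ℕ := dotC u (frC v.x) (frC v.y) (frC v.z)

/-- A vector times a matrix. -/
def vecM (u : V3) (B : M3) : V3 :=
  ⟨dotC u B.r.x B.s.x B.t.x, dotC u B.r.y B.s.y B.t.y, dotC u B.r.z B.s.z B.t.z⟩

/-- Product. -/
def mulM (A B : M3) : M3 := ⟨vecM A.r B, vecM A.s B, vecM A.t B⟩

/-- Trace of a product. -/
def trP (A B : M3) : ℕ :=
  dotC A.r B.r.x B.s.x B.t.x ^^^ (dotC A.s B.r.y B.s.y B.t.y ^^^ dotC A.t B.r.z B.s.z B.t.z)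

/-- Adding a scalar. -/
def addS (A : M3) (a : ℕ) : M3 :=
  ⟨⟨A.r.x ^^^ a, A.r.y, A.r.z⟩, ⟨A.s.x, A.s.y ^^^ a, A.s.z⟩, ⟨A.t.x, A.t.y, A.t.z ^^^ a⟩⟩

/-- The identity. -/
def oneM : M3 := ⟨⟨1, 0, 0⟩, ⟨0, 1, 0⟩, ⟨0, 0, 1⟩⟩

/-- Zero. -/
def zeroM : M3 := ⟨⟨0, 0, 0⟩, ⟨0, 0, 0⟩, ⟨0, 0, 0⟩⟩

/-- The conjugate cross product: the third row of a unitary matrix of determinant one. -/
def crossC (u v : V3) : V3 :=
  ⟨frC (mulC u.y v.z ^^^ mulC u.z v.y), frC (mulC u.z v.x ^^^ mulC u.x v.z),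
    frC (mulC u.x v.y ^^^ mulC u.y v.x)⟩

end CfsgLib.Spec53.U34
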