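import Cfsg.Agent.Spec53.U34.Data

/-!
The certificate that the test class function is annihilated by the subgroups of order 13.
-/

set_option autoImplicit false
set_option Elab.async false

namespace CfsgLib.Spec53.U34

/-- The test function on a product, from its trace. -/
def phiC (A B : M3) : ℕ :=
  if mulC (frC (trP A B)) (trP A B) = 1 then
    if trP A B = 1 then
      if mulM A B = oneM then 2 else
        if mulM (addS (mulM A B) 1) (addS (mulM A B) 1) = zeroM then 1 else 0
    else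
      if mulM (addS (mulM A B) (mulC (trP A B) (trP A B))) (addS (mulM A B) (trP A B)) = zeroM
      then 2 else 1
  else traceTab.getD (trP A B) 0

/-- The check at one matrix. -/
def rowCheck (g : M3) : Bool := (cPow.map fun c => phiC c g).sum % 5 == 0

/-- The check at one first row. -/
def repCheck (u : V3) : Bool :=
  normV.all fun v => hC v u != 0 || rowCheck ⟨u, v, crossC u v⟩

/-- The powers of the element of order 13 are as listed. -/
theorem cPow_step : cPow.length = 13 ∧ cPow.getD 0 zeroM = oneM ∧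
    (∀ i : Fin 12, cPow.getD (i + 1) zeroM = mulM (cPow.getD i zeroM) cC) ∧
    mulM (cPow.getD 12 zeroM) cC = oneM ∧ hC cC.r cC.r = 1 ∧ hC cC.s cC.s = 1 ∧
    hC cC.t cC.t = 1 ∧ hC cC.r cC.s = 0 ∧ hC cC.r cC.t = 0 ∧ hC cC.s cC.t = 0 ∧
    cC.t = crossC cC.r cC.s ∧ cC ≠ oneM := by
  decide +kernel

theorem rep_check_0 : (repV.take 20).all repCheck = true := by decide +kernel

theorem rep_check_1 : ((repV.drop 20).take 20).all repCheck = true := by decide +kernel

theorem rep_check_2 : ((repV.drop 40).take 20).all repCheck = true := by decide +kernel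

theorem rep_check_3 : (repV.drop 60).all repCheck = true := by decide +kernel

theorem repCheck_of_mem {u : V3} (hu : u ∈ repV) : repCheck u = true := by
  have h0 := List.all_eq_true.1 rep_check_0
  have h1 := List.all_eq_true.1 rep_check_1
  have h2 := List.all_eq_true.1 rep_check_2
  have h3 := List.all_eq_true.1 rep_check_3
  rw [← List.take_append_drop 20 repV, List.mem_append] at hu
  rcases hu with h | h
  · exact h0 u h
  rw [← List.take_append_drop 20 (repV.drop 20), List.mem_append, List.drop_drop] at h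
  rcases h with h | h
  · exact h1 u h
  rw [← List.take_append_drop 20 (repV.drop 40), List.mem_append, List.drop_drop] at h
  rcases h with h | h
  · exact h2 u h
  exact h3 u h

theorem norm_cover_0 : ∀ a : Fin 4, ∀ b : Fin 16, ∀ c : Fin 16,
    hC ⟨a + 0, b, c⟩ ⟨a + 0, b, c⟩ = 1 → (⟨a + 0, b, c⟩ : V3) ∈ normV := by
  decide +kernel

theorem norm_cover_1 : ∀ a : Fin 4, ∀ b : Fin 16, ∀ c : Fin 16,
    hC ⟨a + 4, b, c⟩ ⟨a + 4, b, c⟩ = 1 → (⟨a + 4, b, c⟩ : V3) ∈ normV := by
  decide +kernel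

theorem norm_cover_2 : ∀ a : Fin 4, ∀ b : Fin 16, ∀ c : Fin 16,
    hC ⟨a + 8, b, c⟩ ⟨a + 8, b, c⟩ = 1 → (⟨a + 8, b, c⟩ : V3) ∈ normV := by
  decide +kernel

theorem norm_cover_3 : ∀ a : Fin 4, ∀ b : Fin 16, ∀ c : Fin 16,
    hC ⟨a + 12, b, c⟩ ⟨a + 12, b, c⟩ = 1 → (⟨a + 12, b, c⟩ : V3) ∈ normV := by
  decide +kernel

/-- Every vector of norm one is listed. -/
theorem norm_cover : ∀ a : Fin 16, ∀ b : Fin 16, ∀ c : Fin 16,
    hC ⟨a, b, c⟩ ⟨a, b, c⟩ = 1 → (⟨a, b, c⟩ : V3) ∈ normV := by
  intro a b c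
  have ha := a.isLt
  rcases (show (a : ℕ) < 4 ∨ (4 ≤ (a : ℕ) ∧ (a : ℕ) < 8) ∨ (8 ≤ (a : ℕ) ∧ (a : ℕ) < 12) ∨
      12 ≤ (a : ℕ) by omega) with h | ⟨h, h'⟩ | ⟨h, h'⟩ | h
  · simpa using norm_cover_0 ⟨a, h⟩ b c
  · have := norm_cover_1 ⟨(a : ℕ) - 4, by omega⟩ b c
    simpa only [Nat.sub_add_cancel (show 4 ≤ (a : ℕ) by omega)] using this
  · have := norm_cover_2 ⟨(a : ℕ) - 8, by omega⟩ b c
    simpa only [Nat.sub_add_cancel (show 8 ≤ (a : ℕ) by omega)] using this
  · have := norm_cover_3 ⟨(a : ℕ) - 12, by omega⟩ b c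
    simpa only [Nat.sub_add_cancel (show 12 ≤ (a : ℕ) by omega)] using this

theorem rep_cover_0 : ∀ u ∈ ((normV.drop 0).take 260), ∃ p ∈ cPow, vecM u p ∈ repV := by
  decide +kernel

theorem rep_cover_1 : ∀ u ∈ ((normV.drop 260).take 260), ∃ p ∈ cPow, vecM u p ∈ repV := by
  decide +kernel

theorem rep_cover_2 : ∀ u ∈ ((normV.drop 520).take 260), ∃ p ∈ cPow, vecM u p ∈ repV := by
  decide +kernel

theorem rep_cover_3 : ∀ u ∈ (normV.drop 780), ∃ p ∈ cPow, vecM u p ∈ repV := by
  decide +kernel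

/-- Every vector of norm one is carried to a representative. -/
theorem rep_cover : ∀ u ∈ normV, ∃ p ∈ cPow, vecM u p ∈ repV := by
  have step : ∀ (a b : ℕ) (u : V3), u ∈ normV.drop a →
      u ∈ (normV.drop a).take b ∨ u ∈ normV.drop (a + b) := fun a b u hu => by
    rwa [← List.take_append_drop b (normV.drop a), List.mem_append, List.drop_drop] at hu
  intro u hu
  rcases step 0 260 u hu with h | h
  · exact rep_cover_0 u h
  rcases step 260 260 u h with h | h
  · exact rep_cover_1 u h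
  rcases step 520 260 u h with h | h
  · exact rep_cover_2 u h
  · exact rep_cover_3 u h

end CfsgLib.Spec53.U34
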