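import Mathlib

/-!
The field with sixteen elements coded by the naturals, for kernel computations.
-/

set_option autoImplicit false

namespace CfsgLib.Spec53.U34

/-- The multiplication table of `F_16` (polynomial `X⁴+X+1`), packed in nibbles. -/
def mulTab : ℕ := 116196760129267793630862849262464326346044543732748708940920453221664288556434379745879494961270582141731748813355742142288220638766218855867759359510984593843506004200114943278699875244065120512813025380665946106619127097398772031257643617143689515450995722003729973585221105779229319991106539050771048038400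

/-- The fourth powers, packed in nibbles. -/
def frTab : ℕ := 9924487649903846160

/-- Product of codes. -/
def mulC (a b : ℕ) : ℕ := (mulTab >>> (4 * (16 * (a % 16) + b % 16))) % 16

/-- Fourth power of a code. -/
def frC (a : ℕ) : ℕ := (frTab >>> (4 * (a % 16))) % 16

/-- Multiplication by the generator. -/
def shiftC (a : ℕ) : ℕ := if a % 16 < 8 then 2 * (a % 16) else (2 * (a % 16)) ^^^ 19

theorem mulC_rec : ∀ a : Fin 16, ∀ b : Fin 16, mulC a b =
    (if Nat.testBit a 0 then (b : ℕ) else 0) ^^^ ((if Nat.testBit a 1 then shiftC b else 0) ^^^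
      ((if Nat.testBit a 2 then shiftC (shiftC b) else 0) ^^^
        (if Nat.testBit a 3 then shiftC (shiftC (shiftC b)) else 0))) := by
  decide +kernel

theorem mulC_inv : ∀ a : Fin 16, (a : ℕ) = 0 ∨ ∃ b : Fin 16, mulC a b = 1 := by
  decide +kernel

theorem frC_eq : ∀ a : Fin 16, frC a = mulC (mulC a a) (mulC a a) := by
  decide +kernel

variable {F : Type*} [Field F]

/-- The field element of a code, for a root `ω` of `X⁴+X+1`. -/
def enc (ω : F) (a : ℕ) : F :=
  (if Nat.testBit a 0 then 1 else 0) + (if Nat.testBit a 1 then ω else 0) +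
    (if Nat.testBit a 2 then ω ^ 2 else 0) + (if Nat.testBit a 3 then ω ^ 3 else 0)

theorem enc_zero (ω : F) : enc ω 0 = 0 := by simp [enc]

theorem enc_one (ω : F) : enc ω 1 = 1 := by simp [enc, Nat.testBit, Nat.shiftRight_eq_div_pow]

theorem enc_mod (ω : F) (a : ℕ) : enc ω (a % 16) = enc ω a := by
  rw [enc, enc, show (16 : ℕ) = 2 ^ 4 from rfl]
  simp only [Nat.testBit_mod_two_pow]
  simp

variable [CharP F 2]

theorem bit_add (x : F) (p q : Bool) :
    (if (p ^^ q) = true then x else 0) = (if p = true then x else 0) + (if q = true then x else 0) := by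
  cases p <;> cases q <;> simp [CharTwo.add_self_eq_zero]

theorem enc_xor (ω : F) (a b : ℕ) : enc ω (a ^^^ b) = enc ω a + enc ω b := by
  simp only [enc, Nat.testBit_xor, bit_add]
  abel

/-- The relation of the generator. -/
def IsGen (ω : F) : Prop := ω ^ 4 + ω + 1 = 0

theorem enc_shift {ω : F} (hω : IsGen ω) (a : ℕ) : enc ω (shiftC a) = ω * enc ω a := by
  rw [← enc_mod ω a, show shiftC a = shiftC (a % 16) by simp [shiftC]]
  have h4 : ω ^ 4 = ω + 1 := by
    have := hω
    rw [IsGen, add_assoc, CharTwo.add_eq_zero] at this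
    exact this
  obtain ⟨b, hb⟩ : ∃ b : Fin 16, (b : ℕ) = a % 16 := ⟨⟨a % 16, Nat.mod_lt _ (by omega)⟩, rfl⟩
  rw [← hb]
  have h2 : (2 : F) = 0 := CharTwo.two_eq_zero
  fin_cases b <;>
    (simp [enc, shiftC, Nat.testBit, Nat.shiftRight_eq_div_pow]
     try ring_nf
     try simp only [h4]
     try ring_nf
     try simp [h2])

theorem enc_mul {ω : F} (hω : IsGen ω) (a b : ℕ) : enc ω (mulC a b) = enc ω a * enc ω b := by
  have e : mulC a b = mulC (a % 16) (b % 16) := by simp [mulC]
  have h := mulC_rec ⟨a % 16, Nat.mod_lt _ (by omega)⟩ ⟨b % 16, Nat.mod_lt _ (by omega)⟩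
  rw [e, h, ← enc_mod ω a, ← enc_mod ω b]
  simp only [enc_xor, apply_ite (enc ω), enc_zero, enc_shift hω]
  generalize enc ω (b % 16) = y
  simp only [enc, add_mul, ite_mul, zero_mul, one_mul]
  simp only [mul_assoc, pow_succ, pow_zero, one_mul]
  abel

theorem enc_fr {ω : F} (hω : IsGen ω) (a : ℕ) : enc ω (frC a) = enc ω a ^ 4 := by
  have e : frC a = frC (a % 16) := by simp [frC]
  rw [e, frC_eq ⟨a % 16, Nat.mod_lt _ (by omega)⟩, enc_mul hω, enc_mul hω]
  simp only [enc_mod]
  ring

theorem enc_eq_zero {ω : F} (hω : IsGen ω) {a : ℕ} (h : enc ω a = 0) : a % 16 = 0 := by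
  rcases mulC_inv ⟨a % 16, Nat.mod_lt _ (by omega)⟩ with h0 | ⟨b, hb⟩
  · exact h0
  · exfalso
    have := congrArg (enc ω) hb
    rw [enc_mul hω, enc_mod, h, zero_mul, enc_one] at this
    exact zero_ne_one this

theorem enc_inj {ω : F} (hω : IsGen ω) {a b : ℕ} (ha : a < 16) (hb : b < 16)
    (h : enc ω a = enc ω b) : a = b := by
  have : enc ω (a ^^^ b) = 0 := by rw [enc_xor, h, CharTwo.add_self_eq_zero]
  have h0 := enc_eq_zero hω this
  rw [Nat.mod_eq_of_lt (Nat.xor_lt_two_pow (n := 4) ha hb)] at h0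
  exact Nat.xor_eq_zero_iff.1 h0

variable [Fintype F]

/-- The code of a field element. -/
noncomputable def dec (ω : F) (x : F) : ℕ := (Function.invFun (fun a : Fin 16 => enc ω a) x : Fin 16)

theorem dec_lt (ω : F) (x : F) : dec ω x < 16 := Fin.is_lt _

theorem enc_dec {ω : F} (hω : IsGen ω) (hF : Fintype.card F = 16) (x : F) :
    enc ω (dec ω x) = x := by
  have hbij : Function.Bijective (fun a : Fin 16 => enc ω a) :=
    (Fintype.bijective_iff_injective_and_card _).2
      ⟨fun a b h => Fin.ext (enc_inj hω a.2 b.2 h), by rw [Fintype.card_fin, hF]⟩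
  exact Function.rightInverse_invFun hbij.2 x

theorem dec_enc {ω : F} (hω : IsGen ω) (hF : Fintype.card F = 16) {a : ℕ} (ha : a < 16) :
    dec ω (enc ω a) = a :=
  enc_inj hω (dec_lt _ _) ha (enc_dec hω hF _)

omit [CharP F 2] in
theorem exists_isGen [CharP F 2] (hF : Fintype.card F = 16) : ∃ ω : F, IsGen ω := by
  classical
  by_contra hno
  push_neg at hno
  let q : Polynomial F :=
    Polynomial.X ^ 11 + Polynomial.X ^ 8 + Polynomial.X ^ 7 + Polynomial.X ^ 5 + Polynomial.X ^ 3 +
      Polynomial.X ^ 2 + Polynomial.X + 1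
  have hdeg : q.natDegree = 11 := by simp only [q]; compute_degree!
  have hq : q ≠ 0 := fun h => by rw [h, Polynomial.natDegree_zero] at hdeg; omega
  have hroot : ∀ x : Fˣ, (x : F) ∈ q.roots.toFinset := by
    intro x
    rw [Multiset.mem_toFinset, Polynomial.mem_roots hq, Polynomial.IsRoot.def]
    have h15 : (x : F) ^ 15 = 1 := by
      have := FiniteField.pow_card_sub_one_eq_one (x : F) x.ne_zero
      rwa [hF] at this
    have hprod : ((x : F) ^ 4 + x + 1) * q.eval (x : F) = (x : F) ^ 15 + 1 := by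
      simp only [q, Polynomial.eval_add, Polynomial.eval_pow, Polynomial.eval_X, Polynomial.eval_one]
      have h2 : (2 : F) = 0 := CharTwo.two_eq_zero
      linear_combination ((x : F) ^ 12 + (x : F) ^ 11 + (x : F) ^ 9 + (x : F) ^ 8 + (x : F) ^ 7 + (x : F) ^ 6 +
        (x : F) ^ 5 + (x : F) ^ 4 + (x : F) ^ 3 + (x : F) ^ 2 + (x : F)) * h2
    rw [h15, CharTwo.add_self_eq_zero] at hprod
    exact (mul_eq_zero.1 hprod).resolve_left (hno _)
  have h1 : Fintype.card Fˣ ≤ q.roots.toFinset.card :=
    Finset.card_le_card_of_injOn (fun x : Fˣ => (x : F)) (fun x _ => hroot x)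
      (fun a _ b _ h => Units.ext h)
  rw [Fintype.card_units, hF] at h1
  have h3 := (q.roots.toFinset_card_le).trans (Polynomial.card_roots' q)
  omega

end CfsgLib.Spec53.U34
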